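import Mathlib
import Cfsg.Agent.Lib.SL2.Elements

/-!
# A product of two classes of `PSL₂` is not a class
-/

set_option autoImplicit false
set_option linter.style.haveILetI false

namespace CfsgLib.SL2Cover

open Matrix CfsgLib.SL2Torus
open CfsgLib.PSL2Klein (π π_surj π_eq π_eq_one)

universe u

variable {F : Type u} [Field F]

local notation "L" => Matrix.SpecialLinearGroup (Fin 2) F
local notation "PL" => Matrix.ProjectiveSpecialLinearGroup (Fin 2) F
local notation "M2" => Matrix (Fin 2) (Fin 2) F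

/-- A non-scalar element has a conjugate with non-zero lower left entry. -/
theorem exists_conj_lower {g : L} (hg : ¬ ∃ c : F, (g : M2) = c • (1 : M2)) :
    ∃ c : L, ((c * g * c⁻¹ : L) : M2) 1 0 ≠ 0 := by
  by_contra hh
  push Not at hh
  have h1 : (g : M2) 1 0 = 0 := by simpa using hh 1
  have hw : (!![0, -1; 1, 0] : M2).det = 1 := by simp [Matrix.det_fin_two]
  let w : L := ⟨!![0, -1; 1, 0], hw⟩
  have hwc : (w : M2) = !![0, -1; 1, 0] := rfl
  have h2 : (g : M2) 0 1 = 0 := by
    have := hh w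
    rw [Matrix.SpecialLinearGroup.coe_mul, Matrix.SpecialLinearGroup.coe_mul, Matrix.SpecialLinearGroup.coe_inv, hwc] at this
    simpa [Matrix.mul_apply, Fin.sum_univ_two, Matrix.adjugate_fin_two, Matrix.vecMul, dotProduct] using this
  have h3 : (g : M2) 0 0 = (g : M2) 1 1 := by
    have := hh (l 1)
    rw [Matrix.SpecialLinearGroup.coe_mul, Matrix.SpecialLinearGroup.coe_mul, Matrix.SpecialLinearGroup.coe_inv] at this
    simp [l, Matrix.mul_apply, Fin.sum_univ_two, Matrix.adjugate_fin_two, Matrix.vecMul, dotProduct, h1, h2] at this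
    linear_combination this
  apply hg
  refine ⟨(g : M2) 0 0, ?_⟩
  ext i j
  fin_cases i <;> fin_cases j <;> simp [h1, h2, h3]

theorem trace_family (A B : L) (s : F) :
    tr (u s * A * (u s)⁻¹ * B) = tr (A * B) + s * ((A : M2) 1 0 * ((B : M2) 0 0 - (B : M2) 1 1) +
      ((A : M2) 1 1 - (A : M2) 0 0) * (B : M2) 1 0) - s * s * ((A : M2) 1 0 * (B : M2) 1 0) := by
  simp only [tr, Matrix.SpecialLinearGroup.coe_mul, Matrix.SpecialLinearGroup.coe_inv]
  simp [u, Matrix.trace_fin_two, Matrix.mul_apply, Fin.sum_univ_two, Matrix.adjugate_fin_two, Matrix.vecMul, dotProduct]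
  ring

variable [Fintype F]

theorem product_not_class (h4 : 4 ≤ Fintype.card F) (a b : PL) (ha : a ≠ 1) (hb : b ≠ 1) (c : PL) :
    {g : PL | ∃ x y : PL, g = (x * a * x⁻¹) * (y * b * y⁻¹)} ≠ {g | IsConj c g} := by
  classical
  intro heq
  obtain ⟨A, rfl⟩ := π_surj a
  obtain ⟨B, rfl⟩ := π_surj b
  obtain ⟨C, rfl⟩ := π_surj c
  obtain ⟨cA, hA⟩ := exists_conj_lower (fun h => ha (mk_scalar h))
  obtain ⟨cB, hB⟩ := exists_conj_lower (fun h => hb (mk_scalar h))
  set A' := cA * A * cA⁻¹ with hA'
  set B' := cB * B * cB⁻¹ with hB'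
  have key : ∀ s : F, tr (u s * A' * (u s)⁻¹ * B') = tr C ∨ tr (u s * A' * (u s)⁻¹ * B') = -tr C := by
    intro s
    have hmem : π (u s * A' * (u s)⁻¹ * B') ∈ {g : PL | ∃ x y : PL, g = (x * π A * x⁻¹) * (y * π B * y⁻¹)} := by
      refine ⟨π (u s * cA), π cB, ?_⟩
      rw [hA', hB']
      simp only [map_mul, map_inv, _root_.mul_inv_rev, mul_assoc]
    rw [heq] at hmem
    obtain ⟨z, hz⟩ := isConj_iff.mp hmem
    obtain ⟨Z, rfl⟩ := π_surj z
    rw [← map_inv, ← map_mul, ← map_mul, π_eq] at hz
    rcases hz with h | h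
    · left; rw [← h, tr_conj]
    · right
      rw [← tr_conj C Z, h, tr_neg, neg_neg]
  set k := (A' : M2) 1 0 * (B' : M2) 1 0 with hk
  set m := (A' : M2) 1 0 * ((B' : M2) 0 0 - (B' : M2) 1 1) + ((A' : M2) 1 1 - (A' : M2) 0 0) * (B' : M2) 1 0 with hm
  have hk0 : k ≠ 0 := mul_ne_zero hA hB
  let φ : F → F := fun s => tr (u s * A' * (u s)⁻¹ * B')
  have hfib : ∀ v : F, (Finset.univ.filter fun s => φ s = v).card ≤ 2 := by
    intro v
    by_cases hne : (Finset.univ.filter fun s => φ s = v).Nonempty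
    · obtain ⟨s₀, hs₀⟩ := hne
      rw [Finset.mem_filter] at hs₀
      refine le_trans (Finset.card_le_card (t := {s₀, m / k - s₀}) ?_) Finset.card_le_two
      intro s hs
      rw [Finset.mem_filter] at hs
      have h1 : φ s = φ s₀ := hs.2.trans hs₀.2.symm
      simp only [φ, trace_family, ← hk, ← hm] at h1
      have h2 : (s - s₀) * (m - k * (s + s₀)) = 0 := by linear_combination h1
      rw [Finset.mem_insert, Finset.mem_singleton]
      rcases mul_eq_zero.mp h2 with h | h
      · exact Or.inl (sub_eq_zero.mp h)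
      · right
        field_simp
        linear_combination -h
    · rw [Finset.not_nonempty_iff_eq_empty.mp hne, Finset.card_empty]; omega
  have hmaps : ∀ s ∈ (Finset.univ : Finset F), φ s ∈ ({tr C, -tr C} : Finset F) := fun s _ => by
    simpa [φ] using key s
  have hcount := Finset.card_le_mul_card_image_of_maps_to hmaps 2 (fun v _ => hfib v)
  rw [Finset.card_univ] at hcount
  have h2card : ({tr C, -tr C} : Finset F).card ≤ 2 := Finset.card_le_two
  have hq4 : Fintype.card F = 4 := by omega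
  have h20 : (2 : F) = 0 := two_eq_of_even (by rw [hq4])
  rw [show -tr C = tr C by linear_combination (-tr C) * h20, Finset.pair_eq_singleton, Finset.card_singleton] at hcount
  omega

end CfsgLib.SL2Cover
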