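import Mathlib
import Cfsg.Agent.Lib.SL2.Elements

/-!
# Squares of semisimple classes of `PSL₂`
-/

set_option autoImplicit false
set_option linter.style.haveILetI false

namespace CfsgLib.SL2Cover

open Matrix CfsgLib.SL2Torus
open CfsgLib.PSL2Klein (π π_surj π_eq π_eq_one)

universe u

variable {F : Type u} [Field F]

local notation "L" => Matrix.SpecialLinearGroup (Fin 2) F
local notation "PL" => Matrix.ProjectiveSpecialLinearGroup (Fin 2) F
local notation "M2" => Matrix (Fin 2) (Fin 2) F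

/-- A non-scalar matrix is conjugate in `GL₂` to a companion matrix. -/
theorem exists_companion {g : L} (hg : ¬ ∃ c : F, (g : M2) = c • (1 : M2)) :
    ∃ P : GL (Fin 2) F, (g : M2) * (P : M2) = (P : M2) * !![0, -1; 1, tr g] := by
  set A := (g : M2)
  obtain ⟨v0, v1, hv⟩ : ∃ v0 v1 : F, v0 * (A 1 0 * v0 + A 1 1 * v1) - v1 * (A 0 0 * v0 + A 0 1 * v1) ≠ 0 := by
    by_contra hh
    push Not at hh
    have h10 := hh 1 0
    have h01 := hh 0 1
    have h11 := hh 1 1
    simp at h10 h01 h11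
    apply hg
    refine ⟨A 0 0, ?_⟩
    have h3 : A 0 0 = A 1 1 := by linear_combination -h11 + h10 - h01
    ext i j
    fin_cases i <;> fin_cases j <;> simp [h10, h01, h3]
  have hdet : (!![v0, A 0 0 * v0 + A 0 1 * v1; v1, A 1 0 * v0 + A 1 1 * v1] : M2).det ≠ 0 := by
    rw [Matrix.det_fin_two_of]
    exact fun h => hv (by linear_combination h)
  refine ⟨Matrix.GeneralLinearGroup.mkOfDetNeZero _ hdet, ?_⟩
  have hd : A 0 0 * A 1 1 - A 0 1 * A 1 0 = 1 := by rw [← Matrix.det_fin_two]; exact g.2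
  have ht : tr g = A 0 0 + A 1 1 := Matrix.trace_fin_two _
  show A * !![v0, A 0 0 * v0 + A 0 1 * v1; v1, A 1 0 * v0 + A 1 1 * v1] =
    !![v0, A 0 0 * v0 + A 0 1 * v1; v1, A 1 0 * v0 + A 1 1 * v1] * !![0, -1; 1, tr g]
  ext i j
  fin_cases i <;> fin_cases j <;> simp [Matrix.mul_apply, Fin.sum_univ_two, ht]
  · linear_combination -v0 * hd
  · linear_combination -v1 * hd

/-- Reduction to the companion matrix. -/
theorem exists_factor {g : L} (hg : ¬ ∃ c : F, (g : M2) = c • (1 : M2)) {a b : F}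
    (hsol : ∃ α β : F, α * (a - α) - β * (b + β - α * tr g) = 1) :
    ∃ x y : L, tr x = a ∧ tr y = b ∧ x * y = g := by
  obtain ⟨P, hP⟩ := exists_companion hg
  obtain ⟨α, β, h⟩ := hsol
  set X : M2 := !![α, β; b + β - α * tr g, a - α] with hX
  set Q : M2 := ((P⁻¹ : GL (Fin 2) F) : M2)
  have hPQ : (P : M2) * Q = 1 := by rw [← Units.val_mul, mul_inv_cancel, Units.val_one]
  have hQP : Q * (P : M2) = 1 := by rw [← Units.val_mul, inv_mul_cancel, Units.val_one]
  have hdetX : ((P : M2) * X * Q).det = 1 := by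
    rw [Matrix.det_mul, Matrix.det_mul, mul_comm (P : M2).det, mul_assoc, ← Matrix.det_mul, hPQ, Matrix.det_one,
      mul_one, hX, Matrix.det_fin_two_of]
    exact h
  let x : L := ⟨(P : M2) * X * Q, hdetX⟩
  have hxc : (x : M2) = (P : M2) * X * Q := rfl
  have htrx : tr x = a := by
    rw [tr, hxc, Matrix.trace_mul_comm, ← Matrix.mul_assoc, hQP, Matrix.one_mul, hX, Matrix.trace_fin_two_of]
    ring
  have hg' : (g : M2) = (P : M2) * !![0, -1; 1, tr g] * Q := by
    rw [← hP, Matrix.mul_assoc, hPQ, Matrix.mul_one]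
  refine ⟨x, x⁻¹ * g, htrx, ?_, mul_inv_cancel_left x g⟩
  rw [tr, Matrix.SpecialLinearGroup.coe_mul, inv_eq, htrx, hxc]
  conv_lhs => rw [hg']
  rw [Matrix.sub_mul, Matrix.smul_mul, Matrix.one_mul,
    show (P : M2) * X * Q * ((P : M2) * !![0, -1; 1, tr g] * Q) = (P : M2) * (X * !![0, -1; 1, tr g]) * Q by
      simp only [Matrix.mul_assoc, ← Matrix.mul_assoc Q (P : M2), hQP, Matrix.one_mul],
    Matrix.trace_sub, Matrix.trace_smul, Matrix.trace_mul_comm, ← Matrix.mul_assoc, hQP, Matrix.one_mul,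
    Matrix.trace_mul_comm, ← Matrix.mul_assoc, hQP, Matrix.one_mul, hX, Matrix.trace_fin_two]
  simp [Matrix.trace_fin_two, Matrix.mul_apply, Fin.sum_univ_two]
  ring

variable [Fintype F]

/-- The quadric has a point unless the trace is `±2`. -/
theorem sol_generic {t : F} (ht : t ^ 2 ≠ 4) (a b : F) :
    ∃ α β : F, α * (a - α) - β * (b + β - α * t) = 1 := by
  have hd : (4 : F) - t ^ 2 ≠ 0 := sub_ne_zero.mpr (Ne.symm ht)
  set α₀ := (2 * a - t * b) / (4 - t ^ 2) with hα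
  set β₀ := (t * a - 2 * b) / (4 - t ^ 2) with hβ
  obtain ⟨u, v, huv⟩ := exists_Q_eq (t := -t) (by rwa [neg_sq])
    (-(α₀ * α₀ - t * α₀ * β₀ + β₀ * β₀) + a * α₀ - b * β₀ - 1)
  refine ⟨u + α₀, v + β₀, ?_⟩
  have e1 : 2 * α₀ - t * β₀ = a := by rw [hα, hβ]; field_simp; ring
  have e2 : -t * α₀ + 2 * β₀ = -b := by rw [hα, hβ]; field_simp; ring
  rw [Q] at huv
  linear_combination -huv - u * e1 - v * e2

theorem conj_pair {x y h₁ h₂ : L} {g : L} (hxy : x * y = g) (i₁ : IsConj h₁ x) (i₂ : π h₁ = π h₂)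
    (i₃ : IsConj h₂ y) : ∃ u v : PL, π g = (u * π h₁ * u⁻¹) * (v * π h₁ * v⁻¹) := by
  obtain ⟨c, hc⟩ := isConj_iff.mp i₁
  obtain ⟨d, hd⟩ := isConj_iff.mp i₃
  refine ⟨π c, π d, ?_⟩
  rw [← hxy, map_mul, ← hc, ← hd, map_mul, map_mul, map_mul, map_mul, map_inv, map_inv, ← i₂]

/-- Squares of classes of trace `a` in odd characteristic. -/
theorem cover_odd (h2 : (2 : F) ≠ 0) {h : L} (ha0 : tr h ≠ 0) (ha : tr h ^ 2 ≠ 4) {g : L}
    (hg : π g ≠ 1) : ∃ u v : PL, π g = (u * π h * u⁻¹) * (v * π h * v⁻¹) := by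
  have hgs : ¬ ∃ c : F, (g : M2) = c • (1 : M2) := fun hh => hg (mk_scalar hh)
  set a := tr h
  have hsol : ∃ b : F, (b = a ∨ b = -a) ∧ ∃ α β : F, α * (a - α) - β * (b + β - α * tr g) = 1 := by
    by_cases ht : tr g ^ 2 = 4
    · obtain ⟨e, he, hte⟩ := exists_unip_cases ht
      refine ⟨-(e * a), ?_, ?_⟩
      · rcases mul_self_eq_one_iff.mp he with rfl | rfl
        · exact Or.inr (by ring)
        · exact Or.inl (by ring)
      · have hea : e * a ≠ 0 := mul_ne_zero (fun h0 => by simp [h0] at he) ha0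
        refine ⟨e * (1 / (2 * (e * a))), 1 / (2 * (e * a)), ?_⟩
        rw [hte]
        rcases mul_self_eq_one_iff.mp he with rfl | rfl <;> field_simp <;> ring
    · exact ⟨a, Or.inl rfl, sol_generic ht a a⟩
  obtain ⟨b, hb, hs⟩ := hsol
  obtain ⟨x, y, hx, hy, hxy⟩ := exists_factor hgs hs
  have i₁ : IsConj h x := isConj_of_tr ha hx.symm
  rcases hb with rfl | rfl
  · exact conj_pair hxy i₁ rfl (isConj_of_tr ha hy.symm)
  · refine conj_pair hxy i₁ ((π_eq h (-h)).mpr (Or.inr (neg_neg h).symm)) (isConj_of_tr ?_ ?_)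
    · rwa [tr_neg, neg_sq]
    · rw [tr_neg, hy]

/-- Squares of split classes in characteristic two. -/
theorem cover_even (h2 : (2 : F) = 0) {h : L} (ha : tr h ^ 2 ≠ 4) (hs : Split (tr h)) {g : L}
    (hg : π g ≠ 1) : ∃ u v : PL, π g = (u * π h * u⁻¹) * (v * π h * v⁻¹) := by
  have hgs : ¬ ∃ c : F, (g : M2) = c • (1 : M2) := fun hh => hg (mk_scalar hh)
  obtain ⟨x, y, hx, hy, hxy⟩ := exists_factor hgs (a := tr h) (b := tr h) (by
    by_cases ht : tr g ^ 2 = 4
    · obtain ⟨l, hl⟩ := hs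
      refine ⟨l, 0, ?_⟩
      linear_combination -hl
    · exact sol_generic ht _ _)
  exact conj_pair hxy (isConj_of_tr ha hx.symm) rfl (isConj_of_tr ha hy.symm)

end CfsgLib.SL2Cover
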